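import Cfsg.Agent.H577.GLB.StdCount
import Cfsg.Agent.H614.GLn.RSForm
import Cfsg.Agent.H76.GLB.Lower
import Cfsg.Agent.H38.S4536.N3
import Cfsg.Agent.H38.S4536.Tuples
set_option linter.all false

-- part: H76/GLB/Orb
section
/-!
# Counting the labels fixed by a translation, general form (helper76, S4536 DE)

`g ∈ ZMod M` fixed by `Q`, `P` a predicate invariant under `Q` and `+ g`; `Om` the canonical `x` with `P x`;
`sh x = canon (x + g)` a permutation of `Om`; `Cls` the classes; `per q` the length of the class `q`.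

* `sum_Om` : `∑_{x ∈ Om} w x = ∑_q per q * w q`;
* `card_le_prod` : the number of invariant functions `t` with `t c ∈ X c`, `t (c + c₀ g) = t c`, is at most
  `∏_q |X q| ^ gcd (c₀, per q)`;
* `sum_prod_le` : `∑_{c < N} ∏_i h_i c ≤ (N / L) ∏_i ∑_{v < k_i} h_i v`;
* `exists_gen`, `sum_subgroup` : subgroups of `ZMod M` are cyclic.
-/

set_option autoImplicit false
set_option linter.unusedSectionVars false

namespace Cfsg.Agent.H76.GLB

open Finset Cfsg.Agent.H577.GLB.Std Cfsg.Agent.H614.GLn.RSt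

/-! ### numbers -/

theorem sum_prod_le {ι : Type*} [Fintype ι] (k : ι → ℕ) (hk : ∀ i, 0 < k i) {N L : ℕ}
    (hL : ∀ c, (∀ i, k i ∣ c) → L ∣ c) (h : ι → ℕ → ℕ) (hper : ∀ i c, h i c = h i (c % k i))
    (hLN : L ∣ N) : ∑ c ∈ range N, ∏ i, h i c ≤ (N / L) * ∏ i, ∑ v ∈ range (k i), h i v := by
  classical
  have h1 : (N / L) * ∏ i, ∑ v ∈ range (k i), h i v =
      ∑ y ∈ range (N / L) ×ˢ Fintype.piFinset (fun i => range (k i)), ∏ i, h i (y.2 i) := by
    rw [Finset.sum_product, Finset.prod_univ_sum]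
    simp
  rw [h1]
  let φ : ℕ → ℕ × (ι → ℕ) := fun c => (c / L, fun i => c % k i)
  have hinj : Set.InjOn φ (range N) := by
    intro c _ c' _ hcc
    have h2 : c / L = c' / L := congrArg Prod.fst hcc
    have h3 : ∀ i, c % k i = c' % k i := fun i => congrFun (congrArg Prod.snd hcc) i
    have key : ∀ {c c' : ℕ}, c ≤ c' → (∀ i, c % k i = c' % k i) → c / L = c' / L → c = c' := by
      intro c c' hle h3 h2
      have h4 : L ∣ c' - c := hL _ fun i => (Nat.modEq_iff_dvd' hle).1 (h3 i)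
      have h5 : c % L = c' % L := (Nat.modEq_iff_dvd' hle).2 h4
      rw [← Nat.div_add_mod c L, ← Nat.div_add_mod c' L, h2, h5]
    rcases le_total c c' with h | h
    · exact key h h3 h2
    · exact (key h (fun i => (h3 i).symm) h2.symm).symm
  have h2 : ∑ c ∈ range N, ∏ i, h i c = ∑ y ∈ (range N).image φ, ∏ i, h i (y.2 i) := by
    rw [Finset.sum_image hinj]
    exact Finset.sum_congr rfl fun c _ => Finset.prod_congr rfl fun i _ => hper i c
  rw [h2]
  refine Finset.sum_le_sum_of_subset ?_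
  intro y hy
  obtain ⟨c, hc, rfl⟩ := Finset.mem_image.1 hy
  rw [Finset.mem_range] at hc
  rw [Finset.mem_product, Finset.mem_range, Fintype.mem_piFinset]
  exact ⟨Nat.div_lt_div_of_lt_of_dvd hLN hc, fun i => Finset.mem_range.2 (Nat.mod_lt _ (hk i))⟩

/-- a function on `ℕ` with periods `c` and `k` has period `gcd (c, k)` -/
theorem mod_gcd {α : Type*} {ψ : ℕ → α} {c k : ℕ} (hk : 0 < k) (hc : ∀ i, ψ (i + c) = ψ i)
    (hk' : ∀ i, ψ (i + k) = ψ i) (i : ℕ) : ψ i = ψ (i % Nat.gcd c k) := by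
  have hc' : ∀ u i, ψ (i + u * c) = ψ i := by
    intro u
    induction u with
    | zero => intro i; rw [Nat.zero_mul, Nat.add_zero]
    | succ u ih => intro i; rw [Nat.succ_mul, ← Nat.add_assoc, hc, ih]
  have hk'' : ∀ u i, ψ (i + u * k) = ψ i := by
    intro u
    induction u with
    | zero => intro i; rw [Nat.zero_mul, Nat.add_zero]
    | succ u ih => intro i; rw [Nat.succ_mul, ← Nat.add_assoc, hk', ih]
  have hg : ∀ i, ψ (i + Nat.gcd c k) = ψ i := by
    intro i
    rcases Nat.lt_or_ge (Nat.gcd c k) k with hlt | hge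
    · obtain ⟨u, -, hu⟩ := Nat.exists_mul_mod_eq_gcd hlt
      have h1 := Nat.mod_add_div (c * u) k
      rw [hu] at h1
      rw [← hk'' (c * u / k) (i + Nat.gcd c k), Nat.add_assoc, Nat.mul_comm (c * u / k), h1, Nat.mul_comm, hc']
    · rw [le_antisymm (Nat.gcd_le_right c hk) hge, hk']
  have hg' : ∀ u i, ψ (i + u * Nat.gcd c k) = ψ i := by
    intro u
    induction u with
    | zero => intro i; rw [Nat.zero_mul, Nat.add_zero]
    | succ u ih => intro i; rw [Nat.succ_mul, ← Nat.add_assoc, hg, ih]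
  conv_lhs => rw [← Nat.mod_add_div i (Nat.gcd c k), Nat.mul_comm, hg']

/-! ### the classes -/

section

variable {Q : ℤ} {M : ℕ} [NeZero M] {g : ZMod M} {P : ZMod M → Prop}

/-- the situation -/
structure Sit (Q : ℤ) (M : ℕ) [NeZero M] (g : ZMod M) (P : ZMod M → Prop) : Prop where
  unit : IsUnit (Q : ZMod M)
  fix : (Q : ZMod M) * g = g
  PQ : ∀ c, P ((Q : ZMod M) * c) ↔ P c
  Pg : ∀ c, P (c + g) ↔ P c

theorem fun_canon {α : Sort*} {f : ZMod M → α} (hf : ∀ c, f ((Q : ZMod M) * c) = f c) (c : ZMod M) :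
    f (canon Q M c) = f c := by
  obtain ⟨j, hj⟩ := sameZ_canon (Q := Q) c
  rw [hj]
  clear hj
  induction j with
  | zero => rw [pow_zero, one_mul]
  | succ j ih => rw [pow_succ', mul_assoc, hf, ih]

/-- the canonical labels with the property `P` -/
def Om (Q : ℤ) (M : ℕ) (P : ZMod M → Prop) : Type := {x : ZMod M // canon Q M x = x ∧ P x}

namespace Sit

variable (h : Sit Q M g P)

include h

theorem P_canon (c : ZMod M) : P (canon Q M c) ↔ P c :=
  iff_of_eq (fun_canon (fun c => propext (h.PQ c)) c)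

theorem pow_fix (j : ℕ) : (Q : ZMod M) ^ j * g = g := by
  induction j with
  | zero => rw [pow_zero, one_mul]
  | succ j ih => rw [pow_succ', mul_assoc, ih, h.fix]

theorem canon_canon_add (x : ZMod M) : canon Q M (canon Q M x + g) = canon Q M (x + g) := by
  refine (canon_eq_of_same h.unit ?_).symm
  obtain ⟨j, hj⟩ := sameZ_canon (Q := Q) x
  exact ⟨j, by rw [mul_add, h.pow_fix, ← hj]⟩

/-- the shift -/
noncomputable def sh (x : Om Q M P) : Om Q M P :=
  ⟨canon Q M (x.1 + g), canon_canon h.unit _, (h.P_canon _).2 ((h.Pg _).2 x.2.2)⟩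

theorem iter_val (i : ℕ) (x : Om Q M P) : (h.sh^[i] x).1 = canon Q M (x.1 + i • g) := by
  induction i with
  | zero => rw [Function.iterate_zero, id, zero_nsmul, add_zero, x.2.1]
  | succ i ih =>
    rw [Function.iterate_succ_apply']
    show canon Q M ((h.sh^[i] x).1 + g) = _
    rw [ih, h.canon_canon_add, succ_nsmul, add_assoc]

theorem iter_order (x : Om Q M P) : h.sh^[addOrderOf g] x = x := by
  apply Subtype.ext
  rw [h.iter_val, addOrderOf_nsmul_eq_zero, add_zero, x.2.1]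

theorem order_pos : 0 < addOrderOf g := addOrderOf_pos g

theorem iter_mul_order (x : Om Q M P) (j : ℕ) : h.sh^[addOrderOf g * j] x = x := by
  rw [Function.iterate_mul]
  induction j with
  | zero => rfl
  | succ j ih => rw [Function.iterate_succ_apply', ih, h.iter_order]

/-- the period -/
noncomputable def kk (x : Om Q M P) : ℕ := Function.minimalPeriod h.sh x

theorem kk_dvd_iff (x : Om Q M P) (i : ℕ) : h.kk x ∣ i ↔ h.sh^[i] x = x := by
  rw [kk, ← Function.isPeriodicPt_iff_minimalPeriod_dvd]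
  rfl

theorem kk_dvd (x : Om Q M P) : h.kk x ∣ addOrderOf g := (h.kk_dvd_iff x _).2 (h.iter_order x)

theorem kk_pos (x : Om Q M P) : 0 < h.kk x := Nat.pos_of_dvd_of_pos (h.kk_dvd x) h.order_pos

theorem kk_dvd_iff' (x : Om Q M P) (i : ℕ) : h.kk x ∣ i ↔ SameZ Q M x.1 (x.1 + i • g) := by
  rw [h.kk_dvd_iff, ← canon_eq_iff h.unit, x.2.1]
  constructor
  · intro h1
    rw [← h.iter_val, h1]
  · intro h1
    apply Subtype.ext
    rw [h.iter_val, ← h1]

/-- the classes -/
def stoid : Setoid (Om Q M P) where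
  r x y := ∃ i, h.sh^[i] x = y
  iseqv :=
    { refl := fun x => ⟨0, rfl⟩
      symm := by
        rintro x y ⟨i, rfl⟩
        refine ⟨addOrderOf g * i - i, ?_⟩
        rw [← Function.iterate_add_apply, Nat.sub_add_cancel (Nat.le_mul_of_pos_left i h.order_pos),
          h.iter_mul_order]
      trans := by
        rintro x y z ⟨i, rfl⟩ ⟨j, rfl⟩
        exact ⟨j + i, by rw [Function.iterate_add_apply]⟩ }

end Sit

instance : Finite (Om Q M P) := Subtype.finite

/-- the classes -/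
def Cls (h : Sit Q M g P) : Type := Quotient h.stoid

instance (h : Sit Q M g P) : Finite (Cls h) := Quotient.finite _

noncomputable instance (h : Sit Q M g P) : Fintype (Cls h) := Fintype.ofFinite _

namespace Sit

variable (h : Sit Q M g P)

/-- the representative -/
noncomputable def rep (q : Cls h) : Om Q M P := Quotient.out (s := h.stoid) q

/-- the class -/
def cls (x : Om Q M P) : Cls h := Quotient.mk h.stoid x

theorem cls_rep (q : Cls h) : h.cls (h.rep q) = q := Quotient.out_eq (s := h.stoid) q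

theorem exists_iter (x : Om Q M P) : ∃ i, h.sh^[i] (h.rep (h.cls x)) = x :=
  Quotient.exact (s := h.stoid) (h.cls_rep (h.cls x))

theorem cls_eq_iff (x y : Om Q M P) : h.cls x = h.cls y ↔ ∃ i, h.sh^[i] x = y := Quotient.eq (r := h.stoid)

/-- the period of a class -/
noncomputable def per (q : Cls h) : ℕ := h.kk (h.rep q)

theorem per_pos (q : Cls h) : 0 < h.per q := h.kk_pos _

theorem per_dvd (q : Cls h) : h.per q ∣ addOrderOf g := h.kk_dvd _

/-- invariant functions are constant on the classes -/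
theorem fun_rep {α : Sort*} {f : ZMod M → α} (hf : ∀ c, f ((Q : ZMod M) * c) = f c) (hg : ∀ c, f (c + g) = f c)
    (x : Om Q M P) : f x.1 = f (h.rep (h.cls x)).1 := by
  obtain ⟨i, hi⟩ := h.exists_iter x
  conv_lhs => rw [← hi]
  rw [h.iter_val, fun_canon hf]
  clear hi
  generalize (h.rep (h.cls x)).1 = y
  induction i with
  | zero => rw [zero_nsmul, add_zero]
  | succ i ih => rw [succ_nsmul, ← add_assoc, hg, ih]

open Classical in
/-- the size of a class -/
theorem card_cls (q : Cls h) [Fintype (Om Q M P)] :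
    (Finset.univ.filter fun x : Om Q M P => h.cls x = q).card = h.per q := by
  have h1 : (Finset.univ.filter fun x : Om Q M P => h.cls x = q) =
      (Finset.range (h.per q)).image (fun j => h.sh^[j] (h.rep q)) := by
    ext c
    rw [Finset.mem_filter, Finset.mem_image]
    constructor
    · rintro ⟨-, rfl⟩
      obtain ⟨i, hi⟩ := h.exists_iter c
      refine ⟨i % h.per (h.cls c), Finset.mem_range.2 (Nat.mod_lt _ (h.per_pos _)), ?_⟩
      conv_rhs => rw [← hi]
      exact Function.iterate_mod_minimalPeriod_eq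
    · rintro ⟨j, -, rfl⟩
      refine ⟨Finset.mem_univ _, ?_⟩
      conv_rhs => rw [← h.cls_rep q]
      exact ((h.cls_eq_iff _ _).2 ⟨j, rfl⟩).symm
  rw [h1, Finset.card_image_of_injOn, Finset.card_range]
  intro i hi j hj hij
  rw [Finset.mem_coe, Finset.mem_range] at hi hj
  exact Function.iterate_injOn_Iio_minimalPeriod hi hj hij

open Classical in
/-- **summation over the classes** -/
theorem sum_Om (w : ZMod M → ℕ) (hw : ∀ c, w ((Q : ZMod M) * c) = w c) (hg : ∀ c, w (c + g) = w c) :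
    ∑ x ∈ Finset.univ.filter (fun x : ZMod M => canon Q M x = x ∧ P x), w x =
      ∑ q : Cls h, h.per q * w (h.rep q).1 := by
  have : Fintype (Om Q M P) := Fintype.ofFinite _
  have h1 : ∑ x ∈ Finset.univ.filter (fun x : ZMod M => canon Q M x = x ∧ P x), w x =
      ∑ x : Om Q M P, w x.1 := by
    refine Finset.sum_bij' (i := fun x hx => (⟨x, (Finset.mem_filter.1 hx).2⟩ : Om Q M P)) (j := fun x _ => x.1)
      (fun _ _ => Finset.mem_univ _) (fun x _ => Finset.mem_filter.2 ⟨Finset.mem_univ _, x.2⟩)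
      (fun _ _ => rfl) (fun _ _ => rfl) (fun _ _ => rfl)
  rw [h1, ← Finset.sum_fiberwise (s := Finset.univ) (g := fun x : Om Q M P => h.cls x)]
  refine Finset.sum_congr rfl fun q _ => ?_
  rw [Finset.sum_congr rfl (g := fun _ => w (h.rep q).1), Finset.sum_const, h.card_cls, smul_eq_mul]
  intro x hx
  rw [h.fun_rep hw hg x, (Finset.mem_filter.1 hx).2]

/-- **the number of labels fixed by a translation** -/
theorem card_le_prod {m : ℕ} (X : ZMod M → Set (Fin m → ℕ)) (hfin : ∀ c, (X c).Finite)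
    (hXQ : ∀ c, X ((Q : ZMod M) * c) = X c) (hXg : ∀ c, X (c + g) = X c) (hX1 : ∀ c, ¬ P c → (X c).Subsingleton)
    (c₀ : ℕ) :
    Nat.card {t : ZMod M → Fin m → ℕ // (∀ c, t c ∈ X c) ∧ (∀ c, t ((Q : ZMod M) * c) = t c) ∧
      ∀ c, t (c + c₀ • g) = t c} ≤ ∏ q : Cls h, Nat.card (X (h.rep q).1) ^ Nat.gcd c₀ (h.per q) := by
  classical
  have hf : ∀ q : Cls h, Finite (X (h.rep q).1) := fun q => (hfin _).to_subtype
  have h1 : ∏ q : Cls h, Nat.card (X (h.rep q).1) ^ Nat.gcd c₀ (h.per q) =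
      Nat.card (∀ q : Cls h, Fin (Nat.gcd c₀ (h.per q)) → X (h.rep q).1) := by
    rw [Nat.card_pi]
    refine Finset.prod_congr rfl fun q _ => ?_
    rw [Nat.card_fun, Nat.card_fin]
  rw [h1]
  have hXc : ∀ x : Om Q M P, X x.1 = X (h.rep (h.cls x)).1 := fun x => h.fun_rep hXQ hXg x
  have hXi : ∀ (q : Cls h) (i : ℕ), X (h.sh^[i] (h.rep q)).1 = X (h.rep q).1 := by
    intro q i
    have h2 := hXc (h.sh^[i] (h.rep q))
    have h3 : h.cls (h.sh^[i] (h.rep q)) = q := by
      conv_rhs => rw [← h.cls_rep q]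
      exact ((h.cls_eq_iff _ _).2 ⟨i, rfl⟩).symm
    rw [h2, h3]
  refine Nat.card_le_card_of_injective
    (fun t q i => ⟨t.1 (h.sh^[(i : ℕ)] (h.rep q)).1, by rw [← hXi q i]; exact t.2.1 _⟩) ?_
  intro t t' htt
  have hval : ∀ (q : Cls h) (i : ℕ), i < Nat.gcd c₀ (h.per q) →
      t.1 (h.sh^[i] (h.rep q)).1 = t'.1 (h.sh^[i] (h.rep q)).1 := by
    intro q i hi
    exact congrArg Subtype.val (congrFun (congrFun htt q) (⟨i, hi⟩ : Fin _))
  have hperi : ∀ (s : {t : ZMod M → Fin m → ℕ // (∀ c, t c ∈ X c) ∧ (∀ c, t ((Q : ZMod M) * c) = t c) ∧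
      ∀ c, t (c + c₀ • g) = t c}) (q : Cls h) (i : ℕ),
      s.1 (h.sh^[i] (h.rep q)).1 = s.1 (h.sh^[i % Nat.gcd c₀ (h.per q)] (h.rep q)).1 := by
    intro s q i
    refine mod_gcd (ψ := fun i => s.1 (h.sh^[i] (h.rep q)).1) (h.per_pos q) (fun i => ?_) (fun i => ?_) i
    · rw [h.iter_val, h.iter_val, fun_canon s.2.2.1, fun_canon s.2.2.1, add_nsmul, ← add_assoc, s.2.2.2]
    · have h5 : h.sh^[h.per q] (h.rep q) = h.rep q := (h.kk_dvd_iff _ _).1 dvd_rfl
      rw [Function.iterate_add_apply, h5]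
  apply Subtype.ext
  funext c
  by_cases hc : P c
  · have h2 : ∀ s : ZMod M → Fin m → ℕ, (∀ c, s ((Q : ZMod M) * c) = s c) → s c = s (canon Q M c) := fun s hs =>
      (fun_canon hs c).symm
    rw [h2 t.1 t.2.2.1, h2 t'.1 t'.2.2.1]
    set x : Om Q M P := ⟨canon Q M c, canon_canon h.unit c, (h.P_canon c).2 hc⟩ with hx
    obtain ⟨i, hi⟩ := h.exists_iter x
    have h3 : canon Q M c = (h.sh^[i] (h.rep (h.cls x))).1 := by rw [hi]
    rw [h3, hperi t, hperi t', hval _ _ (Nat.mod_lt _ (Nat.gcd_pos_of_pos_right _ (h.per_pos _)))]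
  · exact hX1 c hc (t.2.1 c) (t'.2.1 c)

end Sit

/-! ### subgroups -/

/-- subgroups of `ZMod M` are cyclic; summation over a subgroup -/
theorem exists_gen (A : AddSubgroup (ZMod M)) : ∃ g ∈ A, (∀ a ∈ A, ∃ i : ℕ, i < addOrderOf g ∧ a = i • g) := by
  have hc : IsAddCyclic A := inferInstance
  obtain ⟨⟨g, hg⟩, hgen⟩ := hc.exists_zsmul_surjective
  refine ⟨g, hg, fun a ha => ?_⟩
  obtain ⟨z, hz⟩ := hgen ⟨a, ha⟩
  have hz' : z • g = a := congrArg Subtype.val hz
  refine ⟨(z % (addOrderOf g : ℤ)).toNat, ?_, ?_⟩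
  · have h0 : (0 : ℤ) < addOrderOf g := by exact_mod_cast addOrderOf_pos g
    have h1 := Int.emod_lt_of_pos z h0
    have h2 := Int.emod_nonneg z h0.ne'
    omega
  · have h0 : (0 : ℤ) < addOrderOf g := by exact_mod_cast addOrderOf_pos g
    have h2 := Int.emod_nonneg z h0.ne'
    rw [← natCast_zsmul, Int.toNat_of_nonneg h2, ← hz', mod_addOrderOf_zsmul]

theorem nsmul_inj {g : ZMod M} {i j : ℕ} (hi : i < addOrderOf g) (hj : j < addOrderOf g) (h : i • g = j • g) : i = j :=
  nsmul_injOn_Iio_addOrderOf hi hj h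

end

end Cfsg.Agent.H76.GLB
end

-- part: H76/GLB/DE2
section
/-!
# Counting fixed labels, `p` divides `Q - 1` (helper76, S4536 DE2)

`sum_nfix_le_one`, `card_family_one`.
-/

set_option autoImplicit false
set_option linter.unusedSectionVars false

namespace Cfsg.Agent.H76.GLB

open Finset Cfsg.Agent.H614 Cfsg.Agent.H577.GLB.Std Cfsg.Agent.H614.GLn.RSt

/-! ### tuples -/

section tuples

variable {m : ℕ}

theorem npairs_one (β : Fin m → ℕ) : npairs 1 β = ∑ i : Fin m, (i : ℕ) := by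
  have h1 := two_mul_npairs 1 β
  have h2 : #{x : Fin m × Fin m | β x.1 % 1 = β x.2 % 1} = m * m := by
    rw [Finset.filter_true_of_mem (fun x _ => by rw [Nat.mod_one, Nat.mod_one]), Finset.card_univ, Fintype.card_prod,
      Fintype.card_fin]
  have h3 : (∑ i : Fin m, (i : ℕ)) * 2 = m * (m - 1) := by
    rw [Fin.sum_univ_eq_sum_range (fun i => i) m, Finset.sum_range_id_mul_two]
  rw [h2] at h1
  rcases Nat.eq_zero_or_pos m with rfl | hm
  · simp at h1 ⊢
    omega
  · obtain ⟨k, rfl⟩ : ∃ k, m = k + 1 := ⟨m - 1, by omega⟩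
    rw [Nat.add_sub_cancel] at h3
    nlinarith

theorem ewt_one (β : Fin m → ℕ) : ewt 1 β = bsz β := by
  unfold ewt bsz
  rw [npairs_one]
  simp

theorem sameCol_one (β γ : Fin m → ℕ) : SameCol 1 β γ := sameCol_of_mod fun j => by rw [Nat.mod_one, Nat.mod_one]

/-- the strictly increasing tuples of given size -/
def XX (m w : ℕ) : Set (Fin m → ℕ) := {β | StrictMono β ∧ bsz β = w}

theorem card_XX {w : ℕ} (h : w ≤ m) : Nat.card (XX m w) = Fintype.card (Nat.Partition w) := by
  rw [← H38.S4536.card_tuples h]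
  refine Nat.card_congr (Equiv.subtypeEquivRight fun β => ?_)
  constructor
  · rintro ⟨h1, h2⟩
    refine ⟨h1, ?_⟩
    have := sum_le_of_injective h1.injective
    unfold bsz at h2
    omega
  · rintro ⟨h1, h2⟩
    refine ⟨h1, ?_⟩
    unfold bsz
    omega

theorem finite_XX (w : ℕ) : (XX m w).Finite := by
  refine (Set.finite_Icc (0 : Fin m → ℕ) (fun _ => w + ∑ i : Fin m, (i : ℕ))).subset ?_
  rintro β ⟨h1, h2⟩
  refine ⟨fun i => Nat.zero_le _, fun i => ?_⟩
  have h3 : β i ≤ ∑ i, β i := Finset.single_le_sum (fun _ _ => Nat.zero_le _) (Finset.mem_univ i)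
  unfold bsz at h2
  show β i ≤ w + ∑ i : Fin m, (i : ℕ)
  omega

theorem subsingleton_XX : (XX m 0).Subsingleton := by
  have h1 : Nat.card (XX m 0) = 1 := by
    rw [card_XX (Nat.zero_le _), Fintype.card_eq_one_iff]
    exact ⟨default, fun x => Subsingleton.elim _ _⟩
  have h2 := (Nat.card_eq_one_iff_unique.1 h1).1
  exact Set.subsingleton_coe _ |>.1 h2

end tuples

section

variable {Q : ℤ} {M : ℕ} [NeZero M] {p : ℕ}

/-! ### `p'`-labels -/

theorem pReg_iff (c : ZMod M) : PReg M p c ↔ ∃ k : ℕ, k.Coprime p ∧ k • c = 0 := by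
  constructor
  · intro h
    exact ⟨_, h, addOrderOf_nsmul_eq_zero c⟩
  · rintro ⟨k, hk, h⟩
    exact Nat.Coprime.coprime_dvd_left (addOrderOf_dvd_of_nsmul_eq_zero h) hk

theorem pReg_add {a b : ZMod M} (ha : PReg M p a) (hb : PReg M p b) : PReg M p (a + b) := by
  rw [pReg_iff] at *
  obtain ⟨k, hk, h1⟩ := ha
  obtain ⟨l, hl, h2⟩ := hb
  refine ⟨k * l, Nat.Coprime.mul_left hk hl, ?_⟩
  rw [nsmul_add, mul_nsmul, h1, nsmul_zero, zero_add, mul_comm, mul_nsmul, h2, nsmul_zero]

theorem pReg_neg {a : ZMod M} (ha : PReg M p a) : PReg M p (-a) := by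
  rw [PReg, addOrderOf_neg]
  exact ha

theorem pReg_sub {a b : ZMod M} (ha : PReg M p a) (hb : PReg M p b) : PReg M p (a - b) := by
  rw [sub_eq_add_neg]
  exact pReg_add ha (pReg_neg hb)

theorem pReg_zero : PReg M p (0 : ZMod M) := by
  rw [pReg_iff]
  exact ⟨1, Nat.coprime_one_left p, by simp⟩

theorem eq_zero_of (hp : p.Prime) {c : ZMod M} (h1 : PReg M p c) (h2 : PPow M p c) : c = 0 := by
  obtain ⟨j, hj⟩ := h2
  rw [PReg, hj] at h1
  rw [← AddMonoid.addOrderOf_eq_one_iff, hj]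
  rcases Nat.eq_zero_or_pos j with rfl | h
  · rw [pow_zero]
  · have h3 := (Nat.coprime_pow_left_iff h p p).1 h1
    rw [Nat.coprime_self] at h3
    exact absurd h3 hp.one_lt.ne'

open Classical in
theorem sfun_eq (hp : p.Prime) {m : ℕ} {t : ZMod M → Fin m → ℕ} (ht : POnly M p t) {δ : ZMod M}
    (hδ : PReg M p δ) : sfun M p t δ = bsz (t δ) := by
  unfold sfun
  rw [Finset.sum_eq_single δ]
  · intro c hc hne
    by_cases h : PReg M p c
    · exfalso
      apply hne
      rw [← sub_eq_zero]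
      exact eq_zero_of hp (pReg_sub h hδ) (Finset.mem_filter.1 hc).2
    · exact ht c h
  · intro h
    exfalso
    apply h
    rw [Finset.mem_filter]
    exact ⟨Finset.mem_univ _, 0, by rw [sub_self, addOrderOf_zero, pow_zero]⟩

theorem eD_one (hQp : (Q : ZMod p) = 1) (δ : ZMod M) : eD Q M p δ = 1 := by
  rw [eD, hQp, one_pow, orderOf_one]

theorem sameFam_iff (hp : p.Prime) (hQp : (Q : ZMod p) = 1) {m : ℕ} {t t' : ZMod M → Fin m → ℕ} (ht : POnly M p t)
    (ht' : POnly M p t') : SameFam Q M p t t' ↔ ∀ c, bsz (t c) = bsz (t' c) := by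
  constructor
  · intro h c
    by_cases hc : PReg M p c
    · rw [← sfun_eq hp ht hc, ← sfun_eq hp ht' hc]
      exact (h c hc).1
    · rw [ht c hc, ht' c hc]
  · intro h δ hδ
    refine ⟨?_, ?_⟩
    · rw [sfun_eq hp ht hδ, sfun_eq hp ht' hδ, h]
    · rw [eD_one hQp]
      exact sameCol_one _ _

theorem pOnly_shift {m : ℕ} {t : ZMod M → Fin m → ℕ} (ht : POnly M p t) {a : ZMod M} (ha : PReg M p a) :
    POnly M p (fun c => t (c - a)) := by
  intro c hc
  refine ht _ fun h => hc ?_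
  have := pReg_add h ha
  rwa [sub_add_cancel] at this

theorem torZ_one_iff (a : ZMod M) : TorZ Q M 1 a ↔ (Q : ZMod M) * a = a := by
  rw [TorZ, pow_one, sub_mul, one_mul, sub_eq_zero]

variable {m n : ℕ}

theorem stab_iff (hp : p.Prime) (hQp : (Q : ZMod p) = 1) {t0 : LabZ Q M m n} (h0 : POnly M p t0.t) (a : ZMod M) :
    Stab Q M p t0 a ↔ (Q : ZMod M) * a = a ∧ PReg M p a ∧ ∀ c, bsz (t0.t (c - a)) = bsz (t0.t c) := by
  constructor
  · rintro ⟨h1, h2, h3⟩
    refine ⟨(torZ_one_iff a).1 h1, h2, fun c => ?_⟩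
    exact ((sameFam_iff hp hQp h0 (pOnly_shift h0 h2)).1 h3 c).symm
  · rintro ⟨h1, h2, h3⟩
    exact ⟨(torZ_one_iff a).2 h1, h2, (sameFam_iff hp hQp h0 (pOnly_shift h0 h2)).2 fun c => (h3 c).symm⟩

/-- the stabiliser as a subgroup -/
def StabG (hp : p.Prime) (hQp : (Q : ZMod p) = 1) (t0 : LabZ Q M m n) (h0 : POnly M p t0.t) : AddSubgroup (ZMod M) where
  carrier := {a | Stab Q M p t0 a}
  zero_mem' := by
    rw [Set.mem_ofPred_eq, stab_iff hp hQp h0]
    exact ⟨mul_zero _, pReg_zero, fun c => by rw [sub_zero]⟩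
  add_mem' := by
    intro a b ha hb
    rw [Set.mem_ofPred_eq, stab_iff hp hQp h0] at *
    exact ⟨by rw [mul_add, ha.1, hb.1], pReg_add ha.2.1 hb.2.1, fun c => by rw [← sub_sub, hb.2.2, ha.2.2]⟩
  neg_mem' := by
    intro a ha
    rw [Set.mem_ofPred_eq, stab_iff hp hQp h0] at *
    refine ⟨by rw [mul_neg, ha.1], pReg_neg ha.2.1, fun c => ?_⟩
    rw [sub_neg_eq_add, ← ha.2.2 (c + a), add_sub_cancel_right]

theorem bsz_le (t0 : LabZ Q M m n) (c : ZMod M) : bsz (t0.t c) ≤ n := by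
  have h1 := t0.sum
  have h2 : bsz (t0.t c) ≤ ∑ c, bsz (t0.t c) :=
    Finset.single_le_sum (f := fun c => bsz (t0.t c)) (fun _ _ => Nat.zero_le _) (Finset.mem_univ c)
  exact h2.trans h1.le

theorem SF_iff (hQp : (Q : ZMod p) = 1) {t0 : LabZ Q M m n} (h0 : POnly M p t0.t) (a : ZMod M) :
    SF Q M p t0 a ↔ Stab Q M p t0 a ∧ ∀ δ, 0 < bsz (t0.t δ) → SameZ Q M δ (δ + a) := by
  have h1 : orderOf (Q : ZMod p) = 1 := by rw [hQp, orderOf_one]
  unfold SF
  rw [h1, pow_one]
  constructor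
  · rintro ⟨h2, h3⟩
    refine ⟨h2, fun δ hδ => h3 δ ?_ ?_⟩
    · by_contra h
      rw [h0 δ h] at hδ
      exact lt_irrefl _ hδ
    · rw [eD_one hQp, ewt_one]
      exact hδ
  · rintro ⟨h2, h3⟩
    refine ⟨h2, fun δ _ hδ => h3 δ ?_⟩
    rw [eD_one hQp, ewt_one] at hδ
    exact hδ

theorem canon_add (hQ : IsUnit (Q : ZMod M)) {a : ZMod M} (ha : (Q : ZMod M) * a = a) (x : ZMod M) :
    canon Q M (canon Q M x + a) = canon Q M (x + a) := by
  have hpow : ∀ j : ℕ, (Q : ZMod M) ^ j * a = a := by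
    intro j
    induction j with
    | zero => rw [pow_zero, one_mul]
    | succ j ih => rw [pow_succ', mul_assoc, ih, ha]
  refine (canon_eq_of_same hQ ?_).symm
  obtain ⟨j, hj⟩ := sameZ_canon (Q := Q) x
  exact ⟨j, by rw [mul_add, hpow, ← hj]⟩

open Classical in
/-- **(3c)** -/
theorem sum_nfix_le_one (hp : p.Prime) (hQ : IsUnit (Q : ZMod M)) (hQp : (Q : ZMod p) = 1)
    {m n : ℕ} (hmn : n ≤ m) (hn : 0 < n) (t0 : LabZ Q M m n) (h0 : POnly M p t0.t) (j : ℕ)
    (hj : ∀ δ, p ^ j ∣ bsz (t0.t δ))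
    (hex : ¬ (p = 2 ∧ ∃ δ0, (∀ δ, 0 < bsz (t0.t δ) → SameZ Q M δ0 δ) ∧
      (bsz (t0.t δ0) = 2 ∨ bsz (t0.t δ0) = 4 ∨ bsz (t0.t δ0) = 8))) :
    p * (p ^ j * ∑ a ∈ Finset.univ.filter (fun a : ZMod M => Stab Q M p t0 a), nfix Q M p t0 a) ≤
      (Finset.univ.filter (fun a : ZMod M => SF Q M p t0 a)).card * p ^ totW Q M p t0.t := by
  obtain ⟨g, hg, hgen⟩ := exists_gen (StabG hp hQp t0 h0)
  have hg' := (stab_iff hp hQp h0 g).1 hg
  set w : ZMod M → ℕ := fun c => bsz (t0.t c) with hw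
  have hwQ : ∀ c, w ((Q : ZMod M) * c) = w c := fun c => by rw [hw]; simp only; rw [t0.orb]
  have hwg : ∀ c, w (c + g) = w c := fun c => by
    have h1 := hg'.2.2 (c + g)
    rw [add_sub_cancel_right] at h1
    exact h1.symm
  have h : Sit Q M g (fun c => 0 < w c) :=
    { unit := hQ
      fix := hg'.1
      PQ := fun c => by rw [hwQ]
      Pg := fun c => by rw [hwg] }
  set N := addOrderOf g with hN
  have hNpos : 0 < N := addOrderOf_pos g
  -- the sum over the stabiliser
  have hsum : ∑ a ∈ Finset.univ.filter (fun a : ZMod M => Stab Q M p t0 a), nfix Q M p t0 a =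
      ∑ i ∈ range N, nfix Q M p t0 (i • g) := by
    have e1 : Finset.univ.filter (fun a : ZMod M => Stab Q M p t0 a) = (range N).image (fun i => i • g) := by
      ext a
      rw [Finset.mem_filter, Finset.mem_image]
      constructor
      · rintro ⟨-, ha⟩
        obtain ⟨i, hi, rfl⟩ := hgen a ha
        exact ⟨i, Finset.mem_range.2 hi, rfl⟩
      · rintro ⟨i, -, rfl⟩
        exact ⟨Finset.mem_univ _, AddSubgroup.nsmul_mem _ hg i⟩
    rw [e1, Finset.sum_image]
    intro i hi i' hi' hii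
    exact nsmul_inj (Finset.mem_range.1 hi) (Finset.mem_range.1 hi') hii
  -- the bound for one translation
  have hnfix : ∀ i, nfix Q M p t0 (i • g) ≤
      ∏ q : Cls h, Fintype.card (Nat.Partition (w (h.rep q).1)) ^ Nat.gcd i (h.per q) := by
    intro i
    have h1 := h.card_le_prod (fun c => XX m (w c)) (fun c => finite_XX _) (fun c => by simp only [hwQ])
      (fun c => by simp only [hwg]) (fun c hc => by
        have h2 : w c = 0 := by
          have h3 : ¬ 0 < w c := hc
          omega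
        simp only [h2]
        exact subsingleton_XX) i
    have h2 : ∀ q : Cls h, Nat.card (XX m (w (h.rep q).1)) = Fintype.card (Nat.Partition (w (h.rep q).1)) := fun q =>
      card_XX ((bsz_le t0 _).trans hmn)
    simp only [h2] at h1
    refine le_trans ?_ h1
    have hfin : Finite {t : ZMod M → Fin m → ℕ // (∀ c, t c ∈ XX m (w c)) ∧ (∀ c, t ((Q : ZMod M) * c) = t c) ∧
        ∀ c, t (c + i • g) = t c} := by
      have : ∀ c, Finite (XX m (w c)) := fun c => (finite_XX _).to_subtype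
      exact Finite.of_injective (fun t c => (⟨t.1 c, t.2.1 c⟩ : XX m (w c))) (fun t t' htt => by
        apply Subtype.ext
        funext c
        exact congrArg Subtype.val (congrFun htt c))
    unfold nfix
    refine Nat.card_le_card_of_injective (fun t => ⟨t.1.t, fun c => ⟨t.1.mono c, ?_⟩, t.1.orb, t.2.2.2⟩) ?_
    · exact ((sameFam_iff hp hQp h0 t.2.1).1 t.2.2.1 c).symm
    · intro t t' htt
      apply Subtype.ext
      apply LabZ.ext
      exact congrArg Subtype.val htt
  -- the sum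
  set L := (Finset.univ : Finset (Cls h)).lcm h.per with hLdef
  have hLdvd : ∀ c, (∀ q, h.per q ∣ c) → L ∣ c := fun c hc => Finset.lcm_dvd fun q _ => hc q
  have hLN : L ∣ N := hLdvd N fun q => h.per_dvd q
  have hmain := sum_prod_le h.per h.per_pos hLdvd
    (fun q c => Fintype.card (Nat.Partition (w (h.rep q).1)) ^ Nat.gcd c (h.per q))
    (fun q c => by
      have : Nat.gcd c (h.per q) = Nat.gcd (c % h.per q) (h.per q) := by
        rw [Nat.gcd_comm c, Nat.gcd_rec]
      simp only [this]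
      ) hLN
  -- the strong stabiliser
  have hSF : N / L ≤ (Finset.univ.filter (fun a : ZMod M => SF Q M p t0 a)).card := by
    conv_lhs => rw [← Finset.card_range (N / L)]
    have hLpos : 0 < L := Nat.pos_of_dvd_of_pos hLN hNpos
    apply Finset.card_le_card_of_injOn (fun d => (L * d) • g)
    · intro d hd
      rw [Finset.mem_coe, Finset.mem_filter]
      refine ⟨Finset.mem_univ _, (SF_iff hQp h0 _).2 ⟨AddSubgroup.nsmul_mem _ hg _, fun δ hδ => ?_⟩⟩
      set x : Om Q M (fun c => 0 < w c) := ⟨canon Q M δ, canon_canon hQ δ, (h.P_canon δ).2 hδ⟩ with hx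
      obtain ⟨i, hi⟩ := h.exists_iter x
      have h1 : h.per (h.cls x) ∣ L * d := (Finset.dvd_lcm (Finset.mem_univ _)).mul_right d
      have h2 : h.sh^[L * d] (h.rep (h.cls x)) = h.rep (h.cls x) := (h.kk_dvd_iff _ _).1 h1
      have h3 : h.sh^[L * d] x = x := by
        calc h.sh^[L * d] x = h.sh^[L * d] (h.sh^[i] (h.rep (h.cls x))) := by rw [hi]
          _ = h.sh^[i] (h.sh^[L * d] (h.rep (h.cls x))) := by
            rw [← Function.iterate_add_apply, ← Function.iterate_add_apply, Nat.add_comm]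
          _ = x := by rw [h2, hi]
      have h4 := congrArg Subtype.val h3
      rw [h.iter_val] at h4
      have h5 : (Q : ZMod M) * ((L * d) • g) = (L * d) • g := by
        rw [mul_smul_comm, hg'.1]
      have h6 : canon Q M (δ + (L * d) • g) = canon Q M δ := by
        rw [← canon_add hQ h5]
        exact h4
      exact (canon_eq_iff hQ).1 h6.symm
    · intro d hd d' hd' hdd
      rw [Finset.mem_coe, Finset.mem_range] at hd hd'
      have h1 : L * d < N := by
        rw [← Nat.mul_div_cancel' hLN]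
        exact Nat.mul_lt_mul_of_pos_left hd hLpos
      have h1' : L * d' < N := by
        rw [← Nat.mul_div_cancel' hLN]
        exact Nat.mul_lt_mul_of_pos_left hd' hLpos
      exact Nat.eq_of_mul_eq_mul_left hLpos (nsmul_inj h1 h1' hdd)
  -- the total weight
  have hW : totW Q M p t0.t = ∑ q : Cls h, h.per q * w (h.rep q).1 := by
    rw [← h.sum_Om w hwQ hwg]
    unfold totW
    have e1 : ∀ s : Finset (ZMod M), ∑ x ∈ s, w x = ∑ x ∈ s.filter (fun x => 0 < w x), w x := by
      intro s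
      rw [Finset.sum_filter_of_ne]
      intro x _ hx
      exact Nat.pos_of_ne_zero hx
    have e2 : ∀ δ, ewt (eD Q M p δ) (t0.t δ) = w δ := fun δ => by rw [eD_one hQp, ewt_one]
    simp only [e2]
    rw [e1]
    refine Finset.sum_congr ?_ fun _ _ => rfl
    ext x
    simp only [Finset.mem_filter, Finset.mem_univ, true_and]
    constructor
    · rintro ⟨⟨h1, -⟩, h2⟩
      exact ⟨h1, h2⟩
    · rintro ⟨h1, h2⟩
      refine ⟨⟨h1, ?_⟩, h2⟩
      by_contra hx
      have h3 : w x = 0 := h0 x hx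
      omega
  -- nonempty
  have hne : Nonempty (Cls h) := by
    by_contra hcon
    have h1 : ∀ c, w c = 0 := by
      intro c
      by_contra hc
      exact hcon ⟨h.cls ⟨canon Q M c, canon_canon hQ c, (h.P_canon c).2 (Nat.pos_of_ne_zero hc)⟩⟩
    have h2 := t0.sum
    rw [Finset.sum_eq_zero fun c _ => h1 c] at h2
    omega
  have hNp : N.Coprime p := hg'.2.1
  have hN3 := H38.S4536.N3 p hp h.per (fun q => w (h.rep q).1) (fun q => h.per_pos q)
    (fun q => Nat.Coprime.coprime_dvd_left (h.per_dvd q) hNp) (fun q => (h.rep q).2.2) j (fun q => hj _) (by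
      rintro ⟨hp2, q, hq, hk, hwq⟩
      apply hex
      refine ⟨hp2, (h.rep q).1, fun δ hδ => ?_, hwq⟩
      set x : Om Q M (fun c => 0 < w c) := ⟨canon Q M δ, canon_canon hQ δ, (h.P_canon δ).2 hδ⟩ with hx
      obtain ⟨i, hi⟩ := h.exists_iter x
      rw [hq (h.cls x)] at hi
      have h1 : h.sh^[i] (h.rep q) = h.rep q := by
        rw [← h.kk_dvd_iff]
        show h.per q ∣ i
        rw [hk]
        exact one_dvd i
      rw [h1] at hi
      have h2 : (h.rep q).1 = canon Q M δ := congrArg Subtype.val hi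
      rw [h2]
      exact SameZ.symm' hQ (sameZ_canon δ))
  rw [hsum]
  have hW1 : 1 ≤ totW Q M p t0.t := by
    rw [hW]
    obtain ⟨q⟩ := hne
    have h1 : h.per q * w (h.rep q).1 ≤ ∑ q : Cls h, h.per q * w (h.rep q).1 :=
      Finset.single_le_sum (f := fun q => h.per q * w (h.rep q).1) (fun _ _ => Nat.zero_le _) (Finset.mem_univ q)
    exact le_trans (Nat.mul_pos (h.per_pos q) (h.rep q).2.2) h1
  rw [← hW] at hN3
  calc p * (p ^ j * ∑ i ∈ range N, nfix Q M p t0 (i • g))
      ≤ p * (p ^ j * ((N / L) * ∏ q : Cls h, ∑ v ∈ range (h.per q),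
          Fintype.card (Nat.Partition (w (h.rep q).1)) ^ Nat.gcd v (h.per q))) := by
        refine Nat.mul_le_mul_left _ (Nat.mul_le_mul_left _ ?_)
        exact (Finset.sum_le_sum fun i _ => hnfix i).trans hmain
    _ = (N / L) * (p * (p ^ j * ∏ q : Cls h, ∑ v ∈ range (h.per q),
          Fintype.card (Nat.Partition (w (h.rep q).1)) ^ Nat.gcd v (h.per q))) := by ring
    _ ≤ (Finset.univ.filter (fun a : ZMod M => SF Q M p t0 a)).card * (p * p ^ (totW Q M p t0.t - 1)) :=
        Nat.mul_le_mul hSF (Nat.mul_le_mul_left _ hN3)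
    _ = (Finset.univ.filter (fun a : ZMod M => SF Q M p t0 a)).card * p ^ totW Q M p t0.t := by
        rw [← pow_succ', Nat.sub_add_cancel hW1]

theorem eq_of_bsz_zero {c : ZMod M} {t t' : LabZ Q M m n} (h : bsz (t.t c) = 0) (h' : bsz (t'.t c) = 0) :
    t.t c = t'.t c := subsingleton_XX ⟨t.mono c, h⟩ ⟨t'.mono c, h'⟩

/-- one orbit, `p` divides `Q - 1`: the number of `p'`-labels is the number of partitions -/
theorem card_family_one (hp : p.Prime) (hQ : IsUnit (Q : ZMod M)) (hQp : (Q : ZMod p) = 1)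
    {m n : ℕ} (hmn : n ≤ m) (t0 : LabZ Q M m n) (h0 : POnly M p t0.t) (δ0 : ZMod M)
    (h1 : ∀ δ, 0 < bsz (t0.t δ) → SameZ Q M δ0 δ) :
    nfix Q M p t0 0 = Fintype.card (Nat.Partition (bsz (t0.t δ0))) ∧
    n = perZ Q M δ0 * bsz (t0.t δ0) ∧
    ∀ a, Stab Q M p t0 a → SF Q M p t0 a ∧ nfix Q M p t0 a = nfix Q M p t0 0 := by
  classical
  refine ⟨?_, ?_, ?_⟩
  · rw [← card_XX ((bsz_le t0 δ0).trans hmn)]
    unfold nfix
    refine Nat.card_eq_of_bijective (fun t => (⟨t.1.t δ0, t.1.mono δ0,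
      ((sameFam_iff hp hQp h0 t.2.1).1 t.2.2.1 δ0).symm⟩ : XX m (bsz (t0.t δ0)))) ⟨?_, ?_⟩
    · intro t t' htt
      have h2 : t.1.t δ0 = t'.1.t δ0 := congrArg Subtype.val htt
      apply Subtype.ext
      apply LabZ.ext
      funext c
      by_cases hc : SameZ Q M δ0 c
      · rw [orb_same t.1 hc, orb_same t'.1 hc, h2]
      · have h3 : bsz (t0.t c) = 0 := by
          by_contra h
          exact hc (h1 c (Nat.pos_of_ne_zero h))
        exact eq_of_bsz_zero (((sameFam_iff hp hQp h0 t.2.1).1 t.2.2.1 c).symm.trans h3)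
          (((sameFam_iff hp hQp h0 t'.2.1).1 t'.2.2.1 c).symm.trans h3)
    · rintro ⟨β, hβ, hβ'⟩
      have hβs : bsz β = bsz (t0.t δ0) := hβ'
      have hsz : ∀ c, bsz (repl Q t0.t δ0 β c) = bsz (t0.t c) := by
        intro c
        by_cases hc : SameZ Q M δ0 c
        · rw [repl_same _ _ hc, orb_same t0 hc, hβs]
        · rw [repl_not _ _ hc]
      let t : LabZ Q M m n :=
        { t := repl Q t0.t δ0 β
          mono := (replL hQ t0 δ0 β hβ (e := 0) (by rw [Nat.add_zero]; exact hβs)).mono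
          orb := (replL hQ t0 δ0 β hβ (e := 0) (by rw [Nat.add_zero]; exact hβs)).orb
          sum := by
            rw [Finset.sum_congr rfl fun c _ => hsz c]
            exact t0.sum }
      have ht : POnly M p t.t := fun c hc => by
        show bsz (repl Q t0.t δ0 β c) = 0
        rw [hsz]
        exact h0 c hc
      refine ⟨⟨t, ht, (sameFam_iff hp hQp h0 ht).2 fun c => (hsz c).symm, fun c => by rw [add_zero]⟩, ?_⟩
      apply Subtype.ext
      exact repl_same _ _ (sameZ_refl δ0)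
  · have h2 := t0.sum
    have h3 : ∑ c, bsz (t0.t c) = ∑ c ∈ Finset.univ.filter (fun c => SameZ Q M δ0 c), bsz (t0.t c) := by
      symm
      refine Finset.sum_filter_of_ne fun c _ hc => h1 c (Nat.pos_of_ne_zero hc)
    have h4 : ∑ c ∈ Finset.univ.filter (fun c => SameZ Q M δ0 c), bsz (t0.t c) = perZ Q M δ0 * bsz (t0.t δ0) := by
      rw [Finset.sum_congr rfl (g := fun _ => bsz (t0.t δ0)), Finset.sum_const, card_same hQ, smul_eq_mul]
      intro c hc
      rw [orb_same t0 (Finset.mem_filter.1 hc).2]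
    rw [h3, h4] at h2
    exact h2.symm
  · intro a ha
    have ha' := (stab_iff hp hQp h0 a).1 ha
    have hadd : ∀ c, bsz (t0.t (c + a)) = bsz (t0.t c) := by
      intro c
      have := ha'.2.2 (c + a)
      rw [add_sub_cancel_right] at this
      exact this.symm
    have hsame : ∀ c, 0 < bsz (t0.t c) → SameZ Q M c (c + a) := by
      intro c hc
      exact SameZ.trans' (SameZ.symm' hQ (h1 c hc)) (h1 (c + a) (by rw [hadd]; exact hc))
    refine ⟨(SF_iff hQp h0 a).2 ⟨ha, hsame⟩, ?_⟩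
    unfold nfix
    refine Nat.card_congr (Equiv.subtypeEquivRight fun t => ?_)
    constructor
    · rintro ⟨h2, h3, -⟩
      exact ⟨h2, h3, fun c => by rw [add_zero]⟩
    · rintro ⟨h2, h3, -⟩
      refine ⟨h2, h3, fun c => ?_⟩
      have h4 := (sameFam_iff hp hQp h0 h2).1 h3
      by_cases hc : 0 < bsz (t0.t c)
      · exact orb_same t (hsame c hc)
      · have h5 : bsz (t0.t c) = 0 := by omega
        have h6 : bsz (t.t c) = 0 := by rw [← h4]; exact h5
        have h7 : bsz (t.t (c + a)) = 0 := by rw [← h4, hadd]; exact h5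
        exact subsingleton_XX ⟨t.mono _, h7⟩ ⟨t.mono _, h6⟩

end

end Cfsg.Agent.H76.GLB
end
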